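import Cfsg.Agent.H721.SR.Base
import Cfsg.Agent.H504.ZerosCyc
import Cfsg.Agent.H129.CycRow
import Cfsg.Agent.S1063
import Cfsg.Agent.S1066

/-!
# TEAM SR (S4971, S4970): `E₆(q)` and `²E₆(q)` have non-real elements (helper116, task 3855)

* `nrel_of_exact` : a cyclic self-centralizing subgroup of odd order `a` with `|G : T| = e` modulo `a`, `e < a` odd:
  the non-trivial elements of `T` are not real;
* `rr_e6`, `rr_2e6` : the tori of order `(q⁶ ± q³ + 1) / (3, q ∓ 1)`, `e = 9`.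
-/

set_option autoImplicit false

namespace Cfsg.Agent.H116.SR

open Cfsg Cfsg.Lie Cfsg.Agent.H721.SR Cfsg.Agent.H129.CycT Cfsg.Agent.H504.Zeros Cfsg.Agent.H504.ZeroTI

universe u

/-- **The criterion.** -/
theorem nrel_of_exact {G : Type u} [Group G] [Finite G] {a n e : ℕ} (h : CycExact G a) (hea : e < a) (h1 : 1 < a)
    (hodd : Odd a) (he : Odd e) (hn : Nat.card G = a * n) (hmod : ((n : ℤ) : ZMod a) = e) : NRel G := by
  obtain ⟨T, hT, hc, hz⟩ := h
  have hA := cc_of_cyclic hT hz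
  have hE := eIdx_of_int hA hc hea h1 (N := (n : ℤ)) (by rw [hn]; push_cast; ring) hmod
  -- the order of the normalizer is odd
  have hTN : T ≤ Subgroup.normalizer (T : Set G) := Subgroup.le_normalizer
  have hN : Odd (Nat.card (Subgroup.normalizer (T : Set G))) := by
    have h2 := (T.subgroupOf (Subgroup.normalizer (T : Set G))).card_mul_index
    have h3 : Nat.card (T.subgroupOf (Subgroup.normalizer (T : Set G))) = a := by
      rw [← hc]
      exact Nat.card_congr (Subgroup.subgroupOfEquivOfLe hTN).toEquiv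
    have h4 : (T.subgroupOf (Subgroup.normalizer (T : Set G))).index = e := hE
    rw [h3, h4] at h2
    rw [← h2]
    exact hodd.mul he
  have hne : T ≠ ⊥ := by
    rintro rfl
    rw [Subgroup.card_bot] at hc
    omega
  obtain ⟨⟨x, hx⟩, hx1'⟩ := Subgroup.ne_bot_iff_exists_ne_one.1 hne
  have hx1 : x ≠ 1 := fun h => hx1' (Subtype.ext h)
  refine ⟨x, fun hr => hx1 ?_⟩
  obtain ⟨t, ht⟩ := isConj_iff.1 hr
  have hcx := hz x hx hx1
  have hcx' := hz x⁻¹ (T.inv_mem hx) (inv_ne_one.2 hx1)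
  -- `t` normalizes `T`
  have htN : t ∈ Subgroup.normalizer (T : Set G) := by
    rw [Subgroup.mem_normalizer_iff]
    intro y
    rw [← hcx]
    conv_rhs => rw [hcx, ← hcx', ← ht]
    rw [Subgroup.mem_centralizer_singleton_iff, Subgroup.mem_centralizer_singleton_iff]
    constructor
    · intro hy
      calc t * y * t⁻¹ * (t * x * t⁻¹) = t * (y * x) * t⁻¹ := by group
        _ = t * (x * y) * t⁻¹ := by rw [hy]
        _ = t * x * t⁻¹ * (t * y * t⁻¹) := by group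
    · intro hy
      have h2 : t * (y * x) * t⁻¹ = t * (x * y) * t⁻¹ := by
        calc t * (y * x) * t⁻¹ = t * y * t⁻¹ * (t * x * t⁻¹) := by group
          _ = t * x * t⁻¹ * (t * y * t⁻¹) := hy
          _ = t * (x * y) * t⁻¹ := by group
      exact mul_left_cancel (mul_right_cancel h2)
  -- `t ^ 2` centralizes `x`
  have ht2 : t ^ 2 * x = x * t ^ 2 := by
    have h2 : t * x = x⁻¹ * t := by rw [← ht]; group
    have h3 : t * x⁻¹ = x * t := by
      have h4 : (t * x * t⁻¹)⁻¹ = x := by rw [ht, inv_inv]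
      calc t * x⁻¹ = (t * x * t⁻¹)⁻¹ * t := by group
        _ = x * t := by rw [h4]
    calc t ^ 2 * x = t * (t * x) := by rw [pow_two, mul_assoc]
      _ = (t * x⁻¹) * t := by rw [h2, mul_assoc]
      _ = x * t ^ 2 := by rw [h3, mul_assoc, pow_two]
  have hot : Odd (orderOf t) := by
    have h2 : orderOf t ∣ Nat.card (Subgroup.normalizer (T : Set G)) := by
      have := orderOf_dvd_natCard (⟨t, htN⟩ : Subgroup.normalizer (T : Set G))
      rwa [Subgroup.orderOf_mk] at this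
    exact hN.of_dvd_nat h2
  have htx : t * x = x * t := by
    obtain ⟨k, hk⟩ := hot
    have h2 : (t ^ 2) ^ (k + 1) = t := by
      rw [← pow_mul, show 2 * (k + 1) = (2 * k + 1) + 1 by ring, pow_succ, ← hk, pow_orderOf_eq_one, one_mul]
    have h3 : Commute (t ^ 2) x := ht2
    have h4 := h3.pow_left (k + 1)
    rw [h2] at h4
    exact h4
  have hx2 : x ^ 2 = 1 := by
    rw [htx, mul_inv_cancel_right] at ht
    rw [pow_two]
    exact eq_inv_iff_mul_eq_one.1 ht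
  -- `x` has odd order
  have hox : Odd (orderOf x) := by
    have h2 : orderOf x ∣ Nat.card T := by
      have := orderOf_dvd_natCard (⟨x, hx⟩ : T)
      rwa [Subgroup.orderOf_mk] at this
    rw [hc] at h2
    exact hodd.of_dvd_nat h2
  have h2 : orderOf x ∣ 2 := orderOf_dvd_of_pow_eq_one hx2
  rcases (Nat.dvd_prime Nat.prime_two).1 h2 with h3 | h3
  · exact orderOf_eq_one_iff.1 h3
  · rw [h3] at hox
    exact absurd hox (by decide)

/-- the index of the torus modulo `Φ₉(x)` -/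
theorem nine_of {R : Type*} [CommRing R] {x : R} (h : x ^ 6 + x ^ 3 + 1 = 0) :
    x ^ 36 * ((x ^ 2 - 1) * (x ^ 5 - 1) * (x ^ 6 - 1) * (x ^ 8 - 1) * (x ^ 12 - 1) * (x ^ 3 - 1)) = 9 := by
  have h9 : x ^ 9 = 1 := by linear_combination (x ^ 3 - 1) * h
  have h36 : x ^ 36 = 1 := by
    rw [show x ^ 36 = (x ^ 9) ^ 4 by ring, h9, one_pow]
  have h12 : x ^ 12 = x ^ 3 := by
    rw [show x ^ 12 = x ^ 9 * x ^ 3 by ring, h9, one_mul]
  have e1 : (x ^ 2 - 1) * (x ^ 5 - 1) * (x ^ 8 - 1) = x ^ 6 - 1 := by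
    have h15 : x ^ 15 = x ^ 6 := by rw [show x ^ 15 = x ^ 9 * x ^ 6 by ring, h9, one_mul]
    have h13 : x ^ 13 = x ^ 4 := by rw [show x ^ 13 = x ^ 9 * x ^ 4 by ring, h9, one_mul]
    have h10 : x ^ 10 = x := by rw [show x ^ 10 = x ^ 9 * x by ring, h9, one_mul]
    linear_combination h15 - h13 - h10 + (x ^ 2 - x) * h
  have e2 : (x ^ 6 - 1) * (x ^ 3 - 1) = 3 := by linear_combination (x ^ 3 - 2) * h
  have e3 : (x ^ 6 - 1) * (x ^ 6 - 1) * (x ^ 3 - 1) * (x ^ 3 - 1) = 9 := by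
    have : (x ^ 6 - 1) * (x ^ 6 - 1) * (x ^ 3 - 1) * (x ^ 3 - 1) =
      ((x ^ 6 - 1) * (x ^ 3 - 1)) * ((x ^ 6 - 1) * (x ^ 3 - 1)) := by ring
    rw [this, e2]; norm_num
  rw [h36, h12]
  linear_combination (x ^ 6 - 1) * (x ^ 3 - 1) * (x ^ 3 - 1) * e1 + e3

/-- the index of the torus of `E₆(q)` -/
def idxE (q : ℕ) : ℕ :=
  q ^ 36 * ((q ^ 2 - 1) * (q ^ 5 - 1) * (q ^ 6 - 1) * (q ^ 8 - 1) * (q ^ 12 - 1) * (q ^ 3 - 1))

/-- the index of the torus of `²E₆(q)` -/
def idxT (q : ℕ) : ℕ :=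
  q ^ 36 * ((q ^ 2 - 1) * (q ^ 5 + 1) * (q ^ 6 - 1) * (q ^ 8 - 1) * (q ^ 12 - 1) * (q ^ 3 + 1))

theorem cast_sub {q : ℕ} (hq : 1 ≤ q) (k : ℕ) : ((q ^ k - 1 : ℕ) : ℤ) = (q : ℤ) ^ k - 1 := by
  rw [Nat.cast_sub (Nat.one_le_pow _ _ hq)]
  push_cast
  ring

theorem idxE_mod {q a N : ℕ} (hq : 1 ≤ q) (ha : a ∣ N) (hN : (N : ℤ) = 1 + (q : ℤ) ^ 3 + (q : ℤ) ^ 6) :
    (((idxE q : ℕ) : ℤ) : ZMod a) = (9 : ℕ) := by
  have h1 : ((q : ZMod a)) ^ 6 + (q : ZMod a) ^ 3 + 1 = 0 := by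
    have h2 := (ZMod.natCast_eq_zero_iff N a).2 ha
    have h3 : ((N : ℤ) : ZMod a) = 0 := by rw [Int.cast_natCast, h2]
    rw [hN] at h3
    push_cast at h3
    linear_combination h3
  have h4 := nine_of h1
  unfold idxE
  simp only [Nat.cast_mul, cast_sub hq, Nat.cast_pow]
  push_cast
  exact h4

theorem idxT_mod {q a N : ℕ} (hq : 1 ≤ q) (ha : a ∣ N) (hN : (N : ℤ) = 1 - (q : ℤ) ^ 3 + (q : ℤ) ^ 6) :
    (((idxT q : ℕ) : ℤ) : ZMod a) = (9 : ℕ) := by
  have h1 : ((-(q : ZMod a))) ^ 6 + (-(q : ZMod a)) ^ 3 + 1 = 0 := by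
    have h2 := (ZMod.natCast_eq_zero_iff N a).2 ha
    have h3 : ((N : ℤ) : ZMod a) = 0 := by rw [Int.cast_natCast, h2]
    rw [hN] at h3
    push_cast at h3
    linear_combination h3
  have h4 := nine_of h1
  unfold idxT
  simp only [Nat.cast_mul, cast_sub hq, Nat.cast_pow]
  push_cast
  linear_combination h4

/-- **`E₆(q)` has non-real elements.** -/
theorem nrel_e6 {F : Type u} [Field F] [Fintype F] : NRel ↥(chevE6.group F) := by
  obtain ⟨q, hq⟩ : ∃ q, Fintype.card F = q := ⟨_, rfl⟩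
  have hq2 : 2 ≤ q := by rw [← hq]; exact Fintype.one_lt_card
  set N := q ^ 6 + q ^ 3 + 1 with hNdef
  have hN : (N : ℤ) = 1 + (q : ℤ) ^ 3 + (q : ℤ) ^ 6 := by rw [hNdef]; push_cast; ring
  have hE := exact_E6_9 hq hN
  set d := Nat.gcd 3 (q - 1) with hd
  have hd3 : d ∣ 3 := Nat.gcd_dvd_left _ _
  have hd0 : 0 < d := Nat.pos_of_dvd_of_pos hd3 (by norm_num)
  have hdN : d ∣ N := by
    have h1 : (q : ZMod d) = 1 := by
      have h7 := (ZMod.natCast_eq_zero_iff (q - 1) d).2 (Nat.gcd_dvd_right _ _)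
      rw [Nat.cast_sub (by omega), Nat.cast_one] at h7
      exact sub_eq_zero.1 h7
    rw [← ZMod.natCast_eq_zero_iff, hNdef]
    push_cast
    rw [h1]
    have h3 := (ZMod.natCast_eq_zero_iff 3 d).2 hd3
    push_cast at h3
    linear_combination h3
  obtain ⟨a, ha⟩ := hdN
  have hNa : N / d = a := by rw [ha, Nat.mul_div_cancel_left _ hd0]
  rw [hNa] at hE
  have hN73 : 73 ≤ N := by
    have h1 : 2 ^ 6 ≤ q ^ 6 := Nat.pow_le_pow_left hq2 6
    have h2 : 2 ^ 3 ≤ q ^ 3 := Nat.pow_le_pow_left hq2 3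
    omega
  have hdle : d ≤ 3 := Nat.le_of_dvd (by norm_num) hd3
  have ha46 : 19 ≤ a := by
    have h3 : N ≤ 3 * a := by rw [ha]; exact Nat.mul_le_mul_right _ hdle
    omega
  have hodd : Odd a := by
    have h1 : Odd N := by
      rw [hNdef]
      rcases q.even_or_odd with h | h
      · exact ((h.pow_of_ne_zero (by norm_num)).add (h.pow_of_ne_zero (by norm_num))).add_one
      · exact ((h.pow).add_odd (h.pow)).add_one
    rw [ha] at h1
    exact (Nat.odd_mul.1 h1).2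
  have hcard : Nat.card ↥(chevE6.group F) = a * idxE q := by
    have h1 := Cfsg.Agent.S1063.result (F := F) hq
    have h2 : q ^ 9 - 1 = (q ^ 3 - 1) * (d * a) := by
      rw [← ha]
      zify [Nat.one_le_pow 9 q (by omega), Nat.one_le_pow 3 q (by omega)]
      rw [hN]
      ring
    rw [← hd, h2] at h1
    apply Nat.eq_of_mul_eq_mul_left hd0
    rw [h1]
    unfold idxE
    ring
  exact nrel_of_exact (e := 9) hE (by omega) (by omega) hodd (by decide) hcard
    (idxE_mod (by omega) ⟨d, by rw [ha, mul_comm]⟩ hN)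

/-- **`²E₆(q)` has non-real elements.** -/
theorem nrel_te6 {K : Type u} [Field K] [Fintype K] {q : ℕ} (hq : IsPrimePow q) (hK : Fintype.card K = q ^ 2) :
    NRel ↥(twistedE6 K q) := by
  have hq2 : 2 ≤ q := hq.two_le
  have hle : q ^ 3 ≤ q ^ 6 + 1 := by
    have := Nat.pow_le_pow_right (show 0 < q by omega) (show 3 ≤ 6 by norm_num)
    omega
  set N := q ^ 6 + 1 - q ^ 3 with hNdef
  have hN : (N : ℤ) = 1 - (q : ℤ) ^ 3 + (q : ℤ) ^ 6 := by
    rw [hNdef, Nat.cast_sub hle]; push_cast; ring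
  have hE := exact_tE6_18 hq hK hN
  set d := Nat.gcd 3 (q + 1) with hd
  have hd3 : d ∣ 3 := Nat.gcd_dvd_left _ _
  have hd0 : 0 < d := Nat.pos_of_dvd_of_pos hd3 (by norm_num)
  have hdN : d ∣ N := by
    have h1 : (q : ZMod d) = -1 := by
      have h7 := (ZMod.natCast_eq_zero_iff (q + 1) d).2 (Nat.gcd_dvd_right _ _)
      push_cast at h7
      linear_combination h7
    rw [← ZMod.natCast_eq_zero_iff]
    have h3 : ((N : ℤ) : ZMod d) = 0 := by
      rw [hN]
      push_cast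
      rw [h1]
      have h3 := (ZMod.natCast_eq_zero_iff 3 d).2 hd3
      push_cast at h3
      linear_combination h3
    exact_mod_cast h3
  obtain ⟨a, ha⟩ := hdN
  have hNa : N / d = a := by rw [ha, Nat.mul_div_cancel_left _ hd0]
  rw [hNa] at hE
  have hN73 : 57 ≤ N := by
    have h1 : 2 ^ 3 ≤ q ^ 3 := Nat.pow_le_pow_left hq2 3
    have h3 : q ^ 6 = q ^ 3 * q ^ 3 := by ring
    have h4 : 8 * q ^ 3 ≤ q ^ 3 * q ^ 3 := Nat.mul_le_mul_right _ h1
    omega
  have hdle : d ≤ 3 := Nat.le_of_dvd (by norm_num) hd3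
  have ha46 : 19 ≤ a := by
    have h3 : N ≤ 3 * a := by rw [ha]; exact Nat.mul_le_mul_right _ hdle
    omega
  have hodd : Odd a := by
    have h1 : Odd (N : ℤ) := by
      have e : (N : ℤ) = (q : ℤ) ^ 3 * ((q : ℤ) ^ 3 - 1) + 1 := by rw [hN]; ring
      rw [e]
      have h2 : Even ((q : ℤ) ^ 3 * ((q : ℤ) ^ 3 - 1)) := by
        rcases Int.even_or_odd ((q : ℤ) ^ 3) with h | h
        · exact h.mul_right _
        · exact (h.sub_odd odd_one).mul_left _
      exact h2.add_one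
    have h1' : Odd N := by exact_mod_cast h1
    rw [ha] at h1'
    exact (Nat.odd_mul.1 h1').2
  have hcard : Nat.card ↥(twistedE6 K q) = a * idxT q := by
    have h1 := Cfsg.Agent.S1066.result (K := K) hq hK
    have h2 : q ^ 9 + 1 = (q ^ 3 + 1) * (d * a) := by
      rw [← ha]
      zify
      rw [hN]
      ring
    rw [← hd, h2] at h1
    apply Nat.eq_of_mul_eq_mul_left hd0
    rw [h1]
    unfold idxT
    ring
  exact nrel_of_exact (e := 9) hE (by omega) (by omega) hodd (by decide) hcard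
    (idxT_mod (by omega) ⟨d, by rw [ha, mul_comm]⟩ hN)

variable {S : Type u} [Group S]

/-- the row `E₆` of TEAM SR -/
theorem nrel_of_isoE6 (h : Cfsg.Lie.IsoChevE6 S) : NRel S := by
  obtain ⟨F, _, _, ⟨e⟩⟩ := h
  exact NRel.congr e.symm nrel_e6

/-- the row `²E₆` of TEAM SR -/
theorem nrel_of_iso2E6 (h : Cfsg.Lie.Iso2E6 S) : NRel S := by
  obtain ⟨K, _, _, q, hq, hK, ⟨e⟩⟩ := h
  exact NRel.congr e.symm (nrel_te6 hq hK)

theorem rr_e6 (h : Cfsg.Lie.IsoChevE6 S) : RR S := RR.of_nrel (nrel_of_isoE6 h)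

theorem rr_2e6 (h : Cfsg.Lie.Iso2E6 S) : RR S := RR.of_nrel (nrel_of_iso2E6 h)

end Cfsg.Agent.H116.SR
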